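import Cfsg.Agent.LX.D4c
import Cfsg.Agent.Block.SylowIn
import Cfsg.Prelude.Def_Classical

/-!
# Large extraspecial subgroups of order `2⁹` with a polar space: definitions

The points of the polar space are the conjugates of an elementary abelian group `J` of order `64`,
the lines are the conjugates of the involution `z`, the flags are the conjugates of `(z, J)`.
-/

set_option autoImplicit false

universe u

namespace Cfsg.Lib.X9O

open Subgroup Cfsg.Lib.Local Cfsg.Lib.Solv Module Cfsg.Lib.Spor Cfsg.Lib.LX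
open scoped Pointwise commutatorElement

variable {G : Type u} [Group G]

/-- The flags. -/
def Fg (z : G) (J : Subgroup G) (d : G) (K : Subgroup G) : Prop :=
  ∃ g : G, g * z * g⁻¹ = d ∧ MulAut.conj g • J = K

/-- Collinear (or equal) points. -/
def Cl (z : G) (J K L : Subgroup G) : Prop := ∃ d, Fg z J d K ∧ Fg z J d L

/-- The points. -/
def Pt (J K : Subgroup G) : Prop := ∃ g : G, MulAut.conj g • J = K

/-- The axioms at the flag `(d, K)`. -/
structure At (z : G) (J : Subgroup G) (d : G) (K : Subgroup G) : Prop where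
  pre : PreLX (qOf d) d
  mem : d ∈ K
  sq : ∀ x ∈ K, x * x = 1
  card : Nat.card K = 64
  three : ∃ L M, Fg z J d L ∧ Fg z J d M ∧ L ≠ K ∧ M ≠ K ∧ L ≠ M ∧
    ∀ F, Fg z J d F → F = K ∨ F = L ∨ F = M
  meet : ∀ {L x}, Fg z J d L → K ≠ L → x ∈ K → x ∈ L → x = 1 ∨ x = d
  idx : IdxLeTwo (qOf d) K
  move : ∀ {L a}, Fg z J d L → K ≠ L → a ∈ K → a ∉ qOf d → MulAut.conj a • L ≠ L
  norm : ∀ {a}, a ∈ qOf d → MulAut.conj a • K = K
  of_nw : ∀ {w}, NW d w → w ∈ K → Fg z J w K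
  plane : ∀ {w L M}, NW d w → w ∈ K → Fg z J d L → Fg z J w M → L ≠ K → M ≠ K →
    ∃ x, NW d x ∧ NW w x ∧ Fg z J x L ∧ Fg z J x M
  line : ∀ {w}, NW d w → ∃ L, Fg z J d L ∧ Fg z J w L
  ex_nw : ∃ w ∈ K, NW d w
  ex_out : ∃ w, Fg z J w K ∧ w ∉ qOf d
  faith : ∀ x ∈ K, (∀ w, Fg z J w K → x ∈ qOf w) → x = 1
  gen : closure {w | Fg z J w K} = K

/-- The axioms at all flags. -/
def Geo (z : G) (J : Subgroup G) : Prop := ∀ d K, Fg z J d K → At z J d K

/-- The collinearity graph is connected. -/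
def Conn (z : G) (J : Subgroup G) : Prop := ∀ K, Pt J K → Relation.ReflTransGen (Cl z J) J K

/-- Every point is collinear with a point of each line. -/
def One (z : G) (J : Subgroup G) : Prop :=
  ∀ d K F, Fg z J d K → Pt J F → ∃ M, Fg z J d M ∧ Cl z J M F

/-- The group `Q_s ∩ C(z)` covers a Sylow subgroup of `C(z) / Q_z`. -/
def SY (z s : G) : Prop := Block.IsSylowIn 2 (BB z s ⊔ qOf z) (centralizer ({z} : Set G))

/-- The case of a nonvanishing trilinear form with a Sylow subgroup of order `2¹²`. -/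
structure Ty {z : G} {V : Type*} [AddCommGroup V] [Module (ZMod 2) V] (S : Sh (qOf z) z V)
    (s : G) : Prop where
  nw : NW z s
  dim : finrank (ZMod 2) V = 8
  t1 : T1 S s
  sy : SY z s

/-- The local structure: three totally singular subspaces permuted by `C(z)`. -/
structure Loc {z : G} {V : Type*} [AddCommGroup V] [Module (ZMod 2) V] (S : Sh (qOf z) z V)
    (s t : G) (W : Fin 3 → Submodule (ZMod 2) V) : Prop extends Ty S s where
  perm : ∀ c ∈ centralizer ({z} : Set G), ∀ i, ∃ j, (W i).map (S.ρ c) = W j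
  disj : ∀ i j, i ≠ j → ∀ v ∈ W i, v ∈ W j → v = 0
  tB : t ∈ BB z s
  tQ : t ∉ qOf z
  ker : ∀ v, v ∈ W 0 ↔ S.N t v = 0
  sing : ∀ v ∈ W 0, S.q v = 0
  e1 : ∃ c ∈ centralizer ({z} : Set G), S.ρ c (S.π s) ∈ W 1 ∧ S.ρ c (S.π s) ∈ S.E s
  cen : ∀ c ∈ centralizer ({z} : Set G), (∀ v ∈ W 0, v ∈ S.E s → S.ρ c v = v) →
    c ∈ qOf z ∨ c * t ∈ qOf z
  span : W 0 ≤ Submodule.span (ZMod 2) {v | v ∈ W 0 ∧ ∃ w, NW z w ∧ S.π w = v}

/-- The linear representation of the polar space. -/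
structure Vec (z : G) (J : Subgroup G) (V : Type) [AddCommGroup V] [Module (ZMod 2) V] where
  f : Subgroup G → V
  b : LinearMap.BilinForm (ZMod 2) V
  φ : G →* (V ≃ₗ[ZMod 2] V)
  span : Submodule.span (ZMod 2) (f '' {K | Pt J K}) = ⊤
  b_f : ∀ {K L}, Pt J K → Pt J L → (b (f K) (f L) = 0 ↔ Cl z J K L)
  nondeg : ∀ v, (∀ K, Pt J K → b (f K) v = 0) → v = 0
  φ_f : ∀ {K} (g : G), Pt J K → φ g (f K) = f (MulAut.conj g • K)

/-- The lines act as Siegel transformations, the points act transitively on their opposites. -/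
structure Vec.Good {z : G} {J : Subgroup G} {V : Type} [AddCommGroup V] [Module (ZMod 2) V]
    (R : Vec z J V) : Prop where
  act : ∀ {d K M}, Fg z J d K → Fg z J d M → K ≠ M → ∀ v,
    R.φ d v = v + R.b v (R.f K) • R.f M + R.b v (R.f M) • R.f K
  opp : ∀ {K F F'}, Pt J K → Pt J F → Pt J F' → ¬ Cl z J K F → ¬ Cl z J K F' →
    ∃ j ∈ K, R.φ j (R.f F) = R.f F'
  ex : ∀ {K}, Pt J K → ∃ F, Pt J F ∧ ¬ Cl z J K F
  faith : ∀ {K j}, Pt J K → j ∈ K → (∀ F, Cl z J K F → R.φ j (R.f F) = R.f F) → j = 1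

/-- The conclusion. -/
def IsO8 (G : Type u) [Group G] : Prop :=
  Nonempty (G ≃* POmega (ZMod 2) (quadFormPlus 4 (ZMod 2))) ∨
    ∃ a b : ZMod 2, (∀ z₁ z₂ : ZMod 2, z₁ ^ 2 + a * z₁ * z₂ + b * z₂ ^ 2 = 0 → z₁ = 0 ∧ z₂ = 0) ∧
      Nonempty (G ≃* POmega (ZMod 2) (quadFormMinus 3 (ZMod 2) a b))

theorem Fg_eq_1' : type_of% @Fg.eq_1 := @Fg.eq_1
theorem Cl_eq_1' : type_of% @Cl.eq_1 := @Cl.eq_1
theorem Pt_eq_1' : type_of% @Pt.eq_1 := @Pt.eq_1
theorem Geo_eq_1' : type_of% @Geo.eq_1 := @Geo.eq_1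
theorem Conn_eq_1' : type_of% @Conn.eq_1 := @Conn.eq_1
theorem One_eq_1' : type_of% @One.eq_1 := @One.eq_1
theorem SY_eq_1' : type_of% @SY.eq_1 := @SY.eq_1
theorem IsO8_eq_1' : type_of% @IsO8.eq_1 := @IsO8.eq_1

variable {z d a w : G} {J K L M F : Subgroup G}

theorem Fg.base (z : G) (J : Subgroup G) : Fg z J z J := ⟨1, by simp, by simp⟩

theorem Fg.cj (h : Fg z J d K) (g : G) : Fg z J (g * d * g⁻¹) (MulAut.conj g • K) := by
  obtain ⟨k, rfl, rfl⟩ := h
  exact ⟨g * k, by group, (cj_cj ..).symm⟩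

theorem Fg.cj' (h : Fg z J d K) {g : G} (hg : g * d = d * g) : Fg z J d (MulAut.conj g • K) := by
  simpa [hg] using h.cj g

theorem Fg.cj_iff {g : G} : Fg z J (g * d * g⁻¹) K ↔ Fg z J d (MulAut.conj g⁻¹ • K) :=
  ⟨fun h => by simpa [mul_assoc] using h.cj g⁻¹, fun h => by simpa [cj_inv'] using h.cj g⟩

theorem Fg.cj_iff' {g : G} : Fg z J d (MulAut.conj g • K) ↔ Fg z J (g⁻¹ * d * g) K :=
  ⟨fun h => by simpa [cj_inv] using h.cj g⁻¹, fun h => by simpa [mul_assoc] using h.cj g⟩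

theorem Fg.isConj (h : Fg z J d K) : IsConj z d := by
  obtain ⟨g, e, -⟩ := h; exact isConj_iff.2 ⟨g, e⟩

theorem Fg.pt (h : Fg z J d K) : Pt J K := by
  obtain ⟨g, -, e⟩ := h; exact ⟨g, e⟩

theorem Pt.cj (h : Pt J K) (g : G) : Pt J (MulAut.conj g • K) := by
  obtain ⟨k, rfl⟩ := h; exact ⟨g * k, (cj_cj ..).symm⟩

theorem Pt.fg (h : Pt J K) (z : G) : ∃ d, Fg z J d K := by
  obtain ⟨g, e⟩ := h; exact ⟨_, g, rfl, e⟩

theorem exists_fg (J : Subgroup G) (h : IsConj z d) : ∃ K, Fg z J d K := by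
  obtain ⟨g, e⟩ := isConj_iff.1 h; exact ⟨_, g, e, rfl⟩

theorem Cl.symm (h : Cl z J K L) : Cl z J L K := h.imp fun _ => And.symm

theorem Cl.cj (h : Cl z J K L) (g : G) : Cl z J (MulAut.conj g • K) (MulAut.conj g • L) := by
  obtain ⟨d, a, b⟩ := h; exact ⟨_, a.cj g, b.cj g⟩

theorem Pt.cl (h : Pt J K) (z : G) : Cl z J K K := by
  obtain ⟨d, e⟩ := h.fg z; exact ⟨d, e, e⟩

theorem cj_inj {g : G} (h : MulAut.conj g • K = MulAut.conj g • L) : K = L :=
  smul_left_cancel _ h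

theorem cj_eq_iff {g : G} : MulAut.conj g⁻¹ • K = L ↔ K = MulAut.conj g • L := by
  rw [map_inv, inv_smul_eq_iff]

theorem nw_cj {g : G} (h : NW (g * d * g⁻¹) w) : NW d (g⁻¹ * w * g) := by
  simpa [mul_assoc] using h.conj g⁻¹

theorem At.cj (h : At z J d K) (g : G) : At z J (g * d * g⁻¹) (MulAut.conj g • K) where
  pre := h.pre.qOf_of_conj ⟨g, rfl⟩
  mem := cj_mem h.mem
  sq x hx := by
    have := h.sq _ ((mem_cj g).1 hx)
    rw [← cj_mul] at this
    rw [show x * x = g * (g⁻¹ * (x * x) * g) * g⁻¹ by group, this]; group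
  card := by rw [← h.card]; exact (Nat.card_congr (equivSMul _ _).toEquiv).symm
  three := by
    obtain ⟨L, M, a, b, c, e, f, k⟩ := h.three
    refine ⟨_, _, a.cj g, b.cj g, fun x => c (cj_inj x), fun x => e (cj_inj x), fun x => f (cj_inj x),
      fun F hF => ?_⟩
    simpa only [cj_eq_iff] using k _ (Fg.cj_iff.1 hF)
  meet {L x} a n b c := by
    have := h.meet (Fg.cj_iff.1 a) (fun e => n (cj_eq_iff.1 e.symm).symm) ((mem_cj g).1 b)
      (by simpa using cj_mem (g := g⁻¹) c)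
    refine this.imp (fun e => ?_) fun e => by rw [← e]; group
    rw [show x = g * (g⁻¹ * x * g) * g⁻¹ by group, e]; group
  idx a ha b hb na nb := by
    rw [mem_Q_cj] at na nb ⊢
    rw [cj_mul]
    exact h.idx _ ((mem_cj g).1 ha) _ ((mem_cj g).1 hb) na nb
  move {L a} b n c e f := h.move (Fg.cj_iff.1 b) (fun e => n (cj_eq_iff.1 e.symm).symm)
    ((mem_cj g).1 c) (by rwa [← mem_Q_cj]) (by
      rw [cj_cj, show g⁻¹ * a * g * g⁻¹ = g⁻¹ * a by group, ← cj_cj, f])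
  norm {a} b := by
    have := h.norm ((mem_Q_cj g).1 b)
    rw [cj_cj, show a * g = g * (g⁻¹ * a * g) by group, ← cj_cj, this]
  of_nw a b := Fg.cj_iff'.2 (h.of_nw (nw_cj a) ((mem_cj g).1 b))
  plane {w L M} a b c e n m := by
    obtain ⟨x, p, q, r, s⟩ := h.plane (M := MulAut.conj g⁻¹ • M) (nw_cj a) ((mem_cj g).1 b)
      (Fg.cj_iff.1 c) (by simpa using e.cj g⁻¹) (fun e => n (cj_eq_iff.1 e)) fun e => m (cj_eq_iff.1 e)
    exact ⟨_, p.conj g, by simpa [mul_assoc] using q.conj g, Fg.cj_iff.2 r, Fg.cj_iff.2 s⟩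
  line a := by
    obtain ⟨L, b, c⟩ := h.line (nw_cj a)
    exact ⟨_, b.cj g, Fg.cj_iff'.2 c⟩
  ex_nw := by
    obtain ⟨w, a, b⟩ := h.ex_nw
    exact ⟨_, cj_mem a, b.conj g⟩
  ex_out := by
    obtain ⟨w, a, b⟩ := h.ex_out
    exact ⟨_, a.cj g, by rwa [mem_qOf_conj_iff]⟩
  faith x hx k := by
    have := h.faith _ ((mem_cj g).1 hx) fun w hw => (mem_Q_cj g).1 (k _ (hw.cj g))
    rw [show x = g * (g⁻¹ * x * g) * g⁻¹ by group, this]; group
  gen := by
    refine le_antisymm ((closure_le _).2 fun w hw => (mem_cj g).2 ?_) fun x hx => ?_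
    · rw [← h.gen]; exact subset_closure (Fg.cj_iff'.1 hw)
    · have hy := (mem_cj g).1 hx
      rw [show x = g * (g⁻¹ * x * g) * g⁻¹ by group]
      generalize g⁻¹ * x * g = y at hy
      rw [← h.gen] at hy
      induction hy using closure_induction with
      | mem y hy => exact subset_closure (Fg.cj hy g)
      | one => simp
      | mul a b _ _ ha hb =>
        rw [show g * (a * b) * g⁻¹ = g * a * g⁻¹ * (g * b * g⁻¹) by group]; exact mul_mem ha hb
      | inv a _ ha => rw [← conj_inv]; exact inv_mem ha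

theorem At.geo (h : At z J z J) : Geo z J := by
  rintro _ _ ⟨g, rfl, rfl⟩; exact h.cj g

end Cfsg.Lib.X9O
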