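import Cfsg.Agent.X9O.Defs

/-! # Consequences of the Sylow hypothesis -/

set_option autoImplicit false

universe u

namespace Cfsg.Lib.X9O

open Subgroup Cfsg.Lib.Local Cfsg.Lib.Solv Module Cfsg.Lib.Spor Cfsg.Lib.LX
open scoped Pointwise commutatorElement

variable {G : Type u} [Group G] [Finite G]
variable {z s : G} {V : Type*} [AddCommGroup V] [Module (ZMod 2) V] [Finite V] {S : Sh (qOf z) z V}

omit [Finite G] in
theorem pg2 {d : G} (h : d * d = 1) : IsPGroup 2 (zpowers d) := by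
  rintro ⟨_, n, rfl⟩
  exact ⟨1, Subtype.ext (by
    change (d ^ n) ^ (2 ^ 1) = 1
    rw [pow_one, ← zpow_natCast, ← zpow_mul, mul_comm, zpow_mul, zpow_natCast, pow_two, h, one_zpow])⟩

omit [Finite G] [Finite V] in
theorem split (S : Sh (qOf z) z V) {x : G} (h : x ∈ BB z s ⊔ qOf z) :
    ∃ a ∈ BB z s, ∃ y ∈ qOf z, a * y = x := by
  have := coe_mul_of_left_le_normalizer_right (BB z s) (qOf z) (inf_le_right.trans S.pre.norm)
  have h' : x ∈ ((BB z s ⊔ qOf z : Subgroup G) : Set G) := h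
  rw [this] at h'
  exact h'

omit [Finite V] in
theorem Ty.exists_conj (h : Ty S s) {P : Subgroup G} (hP : IsPGroup 2 P)
    (le : P ≤ centralizer ({z} : Set G)) : ∃ c ∈ centralizer ({z} : Set G), ∀ x ∈ P,
      ∃ a ∈ BB z s, ∃ y ∈ qOf z, a * y = c * x * c⁻¹ := by
  obtain ⟨c, hc, k⟩ := h.sy.exists_conj_le hP le
  exact ⟨c, hc, fun x hx => split S (k ⟨x, hx, rfl⟩)⟩

omit [Finite G] [Finite V] in
theorem ρ_mul_mem (S : Sh (qOf z) z V) {a y : G} (ha : a ∈ centralizer ({z} : Set G))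
    (hy : y ∈ qOf z) (v : V) : S.ρ (a * y) v = S.ρ a v := by
  rw [S.ρ_mul ha (qOf_le z hy), S.ρ_of_mem hy]

/-- The stabiliser of a vector. -/
def stab (S : Sh (qOf z) z V) (v : V) : Subgroup G where
  carrier := {g | g ∈ centralizer ({z} : Set G) ∧ S.ρ g v = v}
  one_mem' := ⟨one_mem _, S.ρ_one v⟩
  mul_mem' := fun {a b} ha hb => ⟨mul_mem ha.1 hb.1, by rw [S.ρ_mul ha.1 hb.1, hb.2, ha.2]⟩
  inv_mem' := fun {a} ha => ⟨inv_mem ha.1, by
    conv_lhs => rw [← ha.2]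
    exact S.ρ_inv_ρ ha.1 v⟩

theorem stab_eq_1' : type_of% @stab.eq_1 := @stab.eq_1

theorem Ty.orbit (h : Ty S s) {x : G} (hx : NW z x) :
    ∃ c ∈ centralizer ({z} : Set G), c * s * c⁻¹ = x := by
  obtain ⟨c, hc, k⟩ := h.exists_conj (P := BB z x) hx.ps.isPGroup.to_inf_left inf_le_right
  have hx' := hx.conj' hc
  have k' : ∀ a ∈ BB z (c * x * c⁻¹), ∃ a₀ ∈ BB z s, ∀ v, S.ρ a₀ v = S.ρ a v := fun a ha => by
    obtain ⟨a₀, h₀, y, hy, e⟩ := k (c⁻¹ * a * c⁻¹⁻¹) (by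
      simpa [mul_assoc] using NW.B_conj (inv_mem hc) ha)
    refine ⟨a₀, h₀, fun v => ?_⟩
    rw [← ρ_mul_mem S h₀.2 hy, e]; congr 2; group
  suffices ∃ y ∈ qOf z, y * s * y⁻¹ = c * x * c⁻¹ by
    obtain ⟨y, hy, e⟩ := this
    exact ⟨c⁻¹ * y, mul_mem (inv_mem hc) (qOf_le z hy), by
      rw [show c⁻¹ * y * s * (c⁻¹ * y)⁻¹ = c⁻¹ * (y * s * y⁻¹) * c by group, e]; group⟩
  generalize c * x * c⁻¹ = w at hx' k'
  obtain ⟨a, ha, b, hb, d, hd, n1, n2, n3, n4, n5, n6, n7⟩ := hx'.exists_three S h.dim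
  obtain ⟨a₀, ha₀, ea⟩ := k' a ha
  obtain ⟨b₀, hb₀, eb⟩ := k' b hb
  obtain ⟨d₀, hd₀, ed⟩ := k' d hd
  have q : ∀ {g g₀}, g ∈ centralizer ({z} : Set G) → (∀ v, S.ρ g₀ v = S.ρ g v) → g₀ ∈ qOf z →
      g ∈ qOf z := fun hg e m => S.mem_of_ρ hg fun v => by rw [← e, S.ρ_of_mem m]
  have m : ∀ {g g₀ k k₀}, g ∈ BB z w → g₀ ∈ BB z s → k ∈ BB z w → k₀ ∈ BB z s →
      (∀ v, S.ρ g₀ v = S.ρ g v) → (∀ v, S.ρ k₀ v = S.ρ k v) →
      ∀ v, S.ρ (g₀ * k₀) v = S.ρ (g * k) v := fun a b c d e f v => by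
    rw [S.ρ_mul b.2 d.2, S.ρ_mul a.2 c.2, e, f]
  have f : ∀ {g g₀}, g ∈ BB z w → g₀ ∈ BB z s → (∀ v, S.ρ g₀ v = S.ρ g v) →
      g₀ ∈ stab S (S.π w) := fun a b e =>
    ⟨b.2, by rw [e]; exact S.N_eq_zero.1 (hx'.N_s S a.2 (hx'.B_le a))⟩
  have fa := f ha ha₀ ea
  have fb := f hb hb₀ eb
  have fd := f hd hd₀ ed
  have fq : ∀ {g}, g ∈ qOf z → g ∈ stab S (S.π w) := fun m => ⟨qOf_le z m, S.ρ_of_mem m _⟩
  have all : ∀ g ∈ BB z s, g ∈ stab S (S.π w) := fun g hg => by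
    rcases h.t1.eight a₀ ha₀ b₀ hb₀ d₀ hd₀ (fun e => n1 (q ha.2 ea e)) (fun e => n2 (q hb.2 eb e))
      (fun e => n4 (q (mul_mem ha hb).2 (m ha ha₀ hb hb₀ ea eb) e)) g hg with
      e | e | e | e | e | e | e | e | e | e | e | e
    · exact (n3 (q hd.2 ed e)).elim
    · exact (n5 (q (mul_mem ha hd).2 (m ha ha₀ hd hd₀ ea ed) e)).elim
    · exact (n6 (q (mul_mem hb hd).2 (m hb hb₀ hd hd₀ eb ed) e)).elim
    · exact (n7 (q (mul_mem (mul_mem ha hb) hd).2 (m (mul_mem ha hb) (mul_mem ha₀ hb₀) hd hd₀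
        (m ha ha₀ hb hb₀ ea eb) ed) e)).elim
    · exact fq e
    · exact (mul_mem_cancel_left fa).1 (fq e)
    · exact (mul_mem_cancel_left fb).1 (fq e)
    · exact (mul_mem_cancel_left (mul_mem fa fb)).1 (fq e)
    · exact (mul_mem_cancel_left fd).1 (fq e)
    · exact (mul_mem_cancel_left fd).1 ((mul_mem_cancel_left fa).1 (fq e))
    · exact (mul_mem_cancel_left fd).1 ((mul_mem_cancel_left fb).1 (fq e))
    · exact (mul_mem_cancel_left fd).1 ((mul_mem_cancel_left (mul_mem fa fb)).1 (fq e))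
  have e := (h.t1.three _ fun g hg => S.N_eq_zero.2 (all g hg).2).resolve_left (hx'.π_ne S)
  rcases (S.π_eq_iff h.nw.mem hx'.mem).1 e.symm with rfl | rfl
  · exact ⟨1, one_mem _, by simp⟩
  · obtain ⟨y, hy, e⟩ := h.nw.exists_x
    exact ⟨y, hy, e.trans h.nw.comm.symm⟩

omit [Finite G] in
theorem Ty.freeB (h : Ty S s) {a : G} (ha : a ∈ BB z s) (hQ : a ∉ qOf z) {v : V}
    (hv : S.N a v = 0) : ∃ u, S.N a u = v := by
  have e := LinearMap.finrank_range_add_finrank_ker (S.N a)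
  rw [h.dim, h.t1.dimK a ha hQ] at e
  have : v ∈ LinearMap.range (S.N a) := by
    rw [Submodule.eq_of_le_of_finrank_le (S.range_le_ker ha.2 (h.nw.sq_mem ha))
      (by rw [h.t1.dimK a ha hQ]; omega)]
    exact hv
  exact this

omit [Finite G] [Finite V] in
theorem not_mem_conj (S : Sh (qOf z) z V) {a y c d : G} (hc : c ∈ centralizer ({z} : Set G))
    (hy : y ∈ qOf z) (e : a * y = c * d * c⁻¹) (hQ : d ∉ qOf z) : a ∉ qOf z := fun m => hQ (by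
  have := S.conj_mem (inv_mem hc) (e ▸ mul_mem m hy)
  simpa [mul_assoc] using this)

theorem Ty.free (h : Ty S s) {d : G} (hd : d ∈ centralizer ({z} : Set G)) (h2 : d * d = 1)
    (hQ : d ∉ qOf z) {v : V} (hv : S.N d v = 0) : ∃ u, S.N d u = v := by
  obtain ⟨c, hc, k⟩ := h.exists_conj (pg2 h2) (zpowers_le.2 hd)
  obtain ⟨a, ha, y, hy, e⟩ := k d (mem_zpowers d)
  have n : ∀ v, S.N a (S.ρ c v) = S.ρ c (S.N d v) := fun v => by
    rw [← S.N_mul_mem ha.2 hy, e, S.N_conj hc hd]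
  obtain ⟨u, f⟩ := h.freeB ha (not_mem_conj S hc hy e hQ) (v := S.ρ c v) (by rw [n, hv, map_zero])
  exact ⟨S.ρ c⁻¹ u, S.ρ_inj hc (by rw [← n, S.ρ_ρ_inv hc, f])⟩

theorem Ty.inverts (h : Ty S s) {d x : G} (hd : d ∈ centralizer ({z} : Set G)) (h2 : d * d = 1)
    (hQ : d ∉ qOf z) (hx : x ∈ qOf z) (hv : S.N d (S.π x) = 0) : d * x * d⁻¹ = x⁻¹ := by
  obtain ⟨u, e⟩ := h.free hd h2 hQ hv
  obtain ⟨y, hy, rfl⟩ := S.π_surj u
  rw [S.N_π hd hy, S.π_eq_iff (S.comm_mem hd hy) hx] at e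
  have i : d⁻¹ = d := inv_eq_of_mul_eq_one_right h2
  have k : d * ⁅d, y⁆ * d⁻¹ = ⁅d, y⁆⁻¹ := by
    simp only [commutatorElement_def, mul_inv_rev, inv_inv, i, ← mul_assoc, h2, one_mul]
  rcases e with rfl | rfl
  · exact k
  · rw [← mul_assoc, mul_assoc, ← mem_C.1 (inv_mem hd), ← mul_assoc, k, mul_inv_rev, S.pre.inv_eq,
      S.pre.central _ (inv_mem (S.comm_mem hd hy))]

omit [Finite G] [Finite V] in
theorem Ty.pair (h : Ty S s) {a b : G} (ha : a ∈ BB z s) (hb : b ∈ BB z s) (nb : b ∉ qOf z)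
    (nab : a * b ∉ qOf z) : ∃ e ∈ S.E s, S.N a e = 0 ∧ S.N b e = S.π s := by
  obtain ⟨e, he, f⟩ := h.t1.move b hb nb
  obtain ⟨e', he', f'⟩ := h.t1.move _ (mul_mem ha hb) nab
  have sa := h.nw.N_s S ha.2 (h.nw.B_le ha)
  rw [S.N_mul ha.2 hb.2] at f'
  rcases h.nw.N_E S ha he with k | k
  · exact ⟨e, he, k, f⟩
  rcases h.nw.N_E S hb he' with l | l
  · rw [l, map_zero, add_zero, add_zero] at f'
    exact ⟨e + e', add_mem he he', by rw [map_add, k, f', add_self'], by rw [map_add, f, l, add_zero]⟩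
  · rw [l, sa, add_zero, add_eq_right] at f'
    exact ⟨e', he', f', l⟩

omit [Finite G] [Finite V] in
theorem t1_cj (h : T1 S s) (g : G) : T1 (S.cj g) (g * s * g⁻¹) := by
  have B : ∀ {a}, a ∈ BB (g * z * g⁻¹) (g * s * g⁻¹) → g⁻¹ * a * g ∈ BB z s := fun ha =>
    ⟨(mem_Q_cj g).1 ha.1, (mem_C_cj g).1 ha.2⟩
  have E : (S.cj g).E (g * s * g⁻¹) = S.E s := by
    ext v
    constructor
    · rintro ⟨x, hx, hx', rfl⟩
      exact ⟨_, ⟨(mem_Q_cj g).1 hx.1, (mem_Q_cj g).1 hx.2⟩, (mem_Q_cj g).1 hx', rfl⟩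
    · rintro ⟨x, hx, hx', rfl⟩
      exact ⟨g * x * g⁻¹, ⟨mem_qOf_conj hx.1, mem_qOf_conj hx.2⟩, mem_qOf_conj hx', by
        simp [Sh.cj, mul_assoc]⟩
  have N : ∀ a, (S.cj g).N a = S.N (g⁻¹ * a * g) := fun _ => rfl
  have p : (S.cj g).π (g * s * g⁻¹) = S.π s := by simp [Sh.cj, mul_assoc]
  refine ⟨E ▸ h.dimE, fun a ha n => ?_, fun a ha n => ?_, fun a ha b hb n1 n2 n3 => ?_,
    fun v hv => ?_, fun a ha b hb c hc n1 n2 n3 d hd => ?_⟩
  · rw [N]; exact h.dimK _ (B ha) (by rwa [← mem_Q_cj])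
  · rw [N, E, p]; exact h.move _ (B ha) (by rwa [← mem_Q_cj])
  · rw [N, N, E, p]
    exact h.two _ (B ha) _ (B hb) (by rwa [← mem_Q_cj]) (by rwa [← mem_Q_cj])
      (by rwa [← cj_mul, ← mem_Q_cj])
  · rw [p]
    refine h.three v fun a ha => ?_
    have := hv (g * a * g⁻¹) ⟨mem_qOf_conj ha.1, (mem_C_cj g).2 (by simpa [mul_assoc] using ha.2)⟩
    rw [N] at this
    simpa [mul_assoc] using this
  · simp only [mem_Q_cj, cj_mul] at n1 n2 n3 ⊢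
    exact h.eight _ (B ha) _ (B hb) _ (B hc) n1 n2 n3 _ (B hd)

omit [Finite G] [Finite V] in
theorem Ty.cj (h : Ty S s) (g : G) : Ty (S.cj g) (g * s * g⁻¹) where
  nw := h.nw.conj g
  dim := h.dim
  t1 := t1_cj h.t1 g
  sy := by
    have := h.sy.map_conj g
    rw [Block.map_conj_centralizer_singleton, Subgroup.map_sup] at this
    have e : ∀ x, (qOf x).map (MulAut.conj g).toMonoidHom = qOf (g * x * g⁻¹) := fun x => by
      ext y; rw [Block.mem_map_conj_iff, mem_Q_cj]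
    have f : (BB z s).map (MulAut.conj g).toMonoidHom = BB (g * z * g⁻¹) (g * s * g⁻¹) := by
      ext y; rw [Block.mem_map_conj_iff, mem_inf, mem_inf, mem_Q_cj, mem_C_cj]
    rwa [e, f] at this

theorem Ty.common (h : Ty S s) {d : G} (c : IsConj z d) (hd : d ∈ centralizer ({z} : Set G))
    (hQ : d ∉ qOf z) : ∃ w, NW z w ∧ NW d w := by
  obtain ⟨s', S', h'⟩ : ∃ s', ∃ S' : Sh (qOf d) d V, Ty S' s' := by
    obtain ⟨g, rfl⟩ := isConj_iff.1 c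
    exact ⟨_, _, h.cj g⟩
  have hz : z ∈ centralizer ({d} : Set G) := mem_C.2 (mem_C.1 hd).symm
  have nz : z ∉ qOf d := fun k => hQ (NW.zs ⟨S'.pre, c.symm, k, fun e => hQ (e ▸ S.pre.mem)⟩)
  obtain ⟨g, hg, k⟩ := h'.exists_conj (pg2 S.pre.mul_self) (zpowers_le.2 hz)
  obtain ⟨a, ha, y, hy, e⟩ := k z (mem_zpowers z)
  have nt := h'.nw.conj' (inv_mem hg)
  have tz := h'.inverts hz S.pre.mul_self nz nt.mem (S'.ρ_inj hg (by
    rw [← S'.N_conj hg hz, ← e, S'.N_mul_mem ha.2 hy, map_zero, S'.ρ_π g hg _ nt.mem,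
      show g * (g⁻¹ * s' * g⁻¹⁻¹) * g⁻¹ = s' by group]
    exact h'.nw.N_s S' ha.2 (h'.nw.B_le ha)))
  generalize g⁻¹ * s' * g⁻¹⁻¹ = t at nt tz
  rw [nt.ps.inv_eq, mul_inv_eq_iff_eq_mul] at tz
  replace tz := mem_C.2 tz.symm
  have key : ∀ {w}, NW d w → w ∈ qOf z → ∃ w, NW z w ∧ NW d w := fun a b =>
    ⟨_, ⟨S.pre, c.trans a.cj, b, fun c => nz (c ▸ a.mem)⟩, a⟩
  by_cases c₁ : t ∈ qOf z
  · exact key nt c₁
  by_cases c₂ : d * t ∈ qOf z
  · exact key nt.mul c₂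
  obtain ⟨k, hk, l⟩ := h.exists_conj (P := zpowers d ⊔ zpowers t)
    ((pg2 S'.pre.mul_self).to_sup_of_normal_right'
      (pg2 nt.ss) (zpowers_le.2 (centralizer_le_normalizer _ (by
        rintro _ ⟨n, rfl⟩
        exact ((show Commute t d from nt.comm).zpow_left n).eq))))
    (sup_le (zpowers_le.2 hd) (zpowers_le.2 tz))
  obtain ⟨a, ha, x, hx, ea⟩ := l d (mem_sup_left (mem_zpowers d))
  obtain ⟨b, hb, y, hy, eb⟩ := l t (mem_sup_right (mem_zpowers t))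
  obtain ⟨u, hu, u1, u2⟩ := h.pair ha hb (not_mem_conj S hk hy eb c₁) (not_mem_conj S hk
    (mul_mem (S.conj_mem (inv_mem hb.2) hx) hy) (d := d * t) (by
      rw [show k * (d * t) * k⁻¹ = k * d * k⁻¹ * (k * t * k⁻¹) by group, ← ea, ← eb]; group) c₂)
  obtain ⟨p, hp, rfl⟩ := S.π_surj u
  have p2 := (S.q_π p hp).1 (h.nw.q_E S hu)
  have hp' := S.conj_mem (inv_mem hk) hp
  have r : S.ρ k (S.π (k⁻¹ * p * k⁻¹⁻¹)) = S.π p := by
    rw [S.ρ_π k hk _ hp']; congr 1; group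
  have da := h.inverts hd S'.pre.mul_self hQ hp' (S.ρ_inj hk (by
    rw [← S.N_conj hk hd, ← ea, S.N_mul_mem ha.2 hx, r, u1, map_zero]))
  rw [conj_inv, inv_eq_of_mul_eq_one_right p2, mul_inv_eq_iff_eq_mul] at da
  have m := S.comm_mem tz hp'
  have n₀ := h.nw.conj' (inv_mem hk)
  have n₁ : S.π (k⁻¹ * s * k⁻¹⁻¹) = S.π ⁅t, k⁻¹ * p * k⁻¹⁻¹⁆ := S.ρ_inj hk (by
    rw [← S.N_π tz hp', ← S.N_conj hk tz, ← eb, S.N_mul_mem hb.2 hy, r, u2, S.ρ_π k hk _ n₀.mem]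
    congr 1; group)
  have n : NW z ⁅t, k⁻¹ * p * k⁻¹⁻¹⁆ := by
    rcases (S.π_eq_iff n₀.mem m).1 n₁ with e | e <;> rw [e]
    · exact n₀
    · rw [n₀.comm]; exact n₀.mul
  refine ⟨_, n, S'.pre, c.symm.trans n.cj, ?_, fun k => hQ (k ▸ m)⟩
  rw [← commutatorElement_inv]
  exact inv_mem (S'.comm_mem (mem_C.2 da.symm) nt.mem)

omit [Finite G] in
theorem card_Q (S : Sh (qOf z) z V) (hV : finrank (ZMod 2) V = 8) : Nat.card (qOf z) = 2 ^ 9 := by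
  rw [S.card_of_mem le_rfl S.pre.mem, S.img_self, finrank_top, hV]

theorem Ty.card_T (h : Ty S s) : Nat.card ↥(BB z s ⊔ qOf z) = 2 ^ 12 := by
  obtain ⟨g, hg⟩ := isConj_iff.1 h.nw.cj
  have e1 : Nat.card (BB z s) = 2 ^ 8 := by
    obtain ⟨S'⟩ : Nonempty (Sh (qOf s) s V) := hg ▸ ⟨S.cj g⟩
    have : BB z s = S'.pre' (S'.perp (Submodule.span (ZMod 2) {S'.π z})) := by
      ext x
      rw [S'.mem_pre', S'.mem_perp_single, mem_inf, mem_C]
      exact and_congr_right fun hx => (S'.b_π x hx z h.nw.zs).symm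
    rw [this, S'.card_of_mem (fun _ k => (S'.mem_pre'.1 k).1) (S'.z_mem_pre' _), S'.img_pre',
      h.nw.symm.finrank_perp_s S' h.dim]
  have e2 : Nat.card ↥(qOf z ⊓ BB z s) = 2 ^ 5 := by
    have : qOf z ⊓ BB z s = qOf z ⊓ qOf s :=
      le_antisymm (inf_le_inf_left _ inf_le_left) fun x k => ⟨k.1, k.2, qOf_le z k.1⟩
    rw [this, S.card_of_mem inf_le_left ⟨S.pre.mem, h.nw.zs⟩]
    exact congrArg (fun n => 2 ^ (n + 1)) h.t1.dimE
  have e3 : Nat.card ↥(qOf z ⊔ BB z s) * Nat.card ↥(qOf z ⊓ BB z s) =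
      Nat.card (qOf z) * Nat.card (BB z s) := by
    rw [← Solv.card_mul_relIndex_of_le (le_sup_left : qOf z ≤ qOf z ⊔ BB z s),
      Solv.Coprime.relIndex_sup_of_le_normalizer (inf_le_right.trans S.pre.norm), mul_assoc,
      Solv.relIndex_mul_card_inf]
  rw [e1, e2, card_Q S h.dim, sup_comm] at e3
  omega

theorem Ty.card (h : Ty S s) : 2 ^ 12 ∣ Nat.card G ∧ ¬ 2 ^ 13 ∣ Nat.card G := by
  have t : Block.IsSylowIn 2 (BB z s ⊔ qOf z) ⊤ :=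
    Block.isSylowIn_of_maximal h.sy.isPGroup le_top fun P hP le _ =>
      h.sy.eq_of_le hP le (S.pre.le_cent_of_isPGroup hP (le_sup_right.trans le))
  have e := t.card_eq
  rw [h.card_T, card_top] at e
  have e' := Nat.pow_right_injective le_rfl e
  have p := Nat.card_pos (α := G)
  rw [← Nat.prime_two.pow_dvd_iff_le_factorization p.ne' |>.symm,
    ← Nat.prime_two.pow_dvd_iff_le_factorization p.ne' |>.symm]
  omega

end Cfsg.Lib.X9O
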